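import Groth.Prelude.Def_SGA1t
import Mathlib.AlgebraicGeometry.Morphisms.Proper
import Mathlib.AlgebraicGeometry.PullbackCarrier
import Mathlib.RingTheory.Algebraic.MvPolynomial
import Mathlib.RingTheory.Flat.TorsionFree

/-!
# A relative normal crossings divisor cut out by global functions on a proper scheme is empty

`SGA1t.IsRelSNC f φ` with `φ` global functions on `X` and `f : X ⟶ S` universally closed forces every
`φ i` to be nowhere vanishing.
-/

set_option autoImplicit false

universe u

open CategoryTheory CategoryTheory.Limits AlgebraicGeometry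

namespace Groth.Agent.Pi1.H417.ComplTop

/-- A flat algebra over a polynomial ring over a field in which a variable satisfies a nonzero
polynomial is trivial. -/
lemma subsingleton_of_flat_of_eval₂ {k : Type u} [Field k] {n : Type u} {B : Type u} [CommRing B]
    (θ : MvPolynomial n k →+* B) (hθ : θ.Flat) (i : n) (p : Polynomial k) (hp : p ≠ 0)
    (h : θ (Polynomial.aeval (MvPolynomial.X i : MvPolynomial n k) p) = 0) : Subsingleton B := by
  algebraize [θ]
  have h1 : Polynomial.aeval (MvPolynomial.X i : MvPolynomial n k) p ≠ 0 := by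
    intro h0
    exact MvPolynomial.transcendental_X k i ⟨p, hp, h0⟩
  have h2 : IsSMulRegular B (Polynomial.aeval (MvPolynomial.X i : MvPolynomial n k) p) :=
    Module.Flat.isSMulRegular_of_isRegular (IsRegular.of_ne_zero h1)
  have h3 : (1 : B) = 0 := by
    apply h2
    simp only [Algebra.smul_def, mul_one, mul_zero]
    exact h
  exact subsingleton_of_zero_eq_one h3.symm

/-- The affine-space form: if `Y` is a scheme over a field with a flat map to affine space
given by functions `v`, one of which satisfies a nonzero polynomial, then `Y` is empty. -/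
lemma isEmpty_of_flat {k : Type u} [Field k] {Y : Scheme.{u}} (y : Y ⟶ Spec (CommRingCat.of k))
    {n : Type u} (v : n → Γ(Y, ⊤)) [Flat (AffineSpace.homOfVector y v)] (i : n)
    (p : Polynomial k) (hp : p ≠ 0)
    (h : p.eval₂ ((Scheme.ΓSpecIso (CommRingCat.of k)).inv ≫ y.appTop).hom (v i) = 0) :
    IsEmpty Y := by
  rw [isEmpty_iff]
  intro x
  obtain ⟨U, hU, hxU, -⟩ := exists_isAffineOpen_mem_and_subset (x := x) (U := ⊤) trivial
  have : IsAffine (U : Scheme.{u}) := hU
  let e := AffineSpace.SpecIso n (CommRingCat.of k)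
  let g₀ : Y ⟶ Spec (CommRingCat.of (MvPolynomial n k)) := AffineSpace.homOfVector y v ≫ e.hom
  let g : (U : Scheme.{u}) ⟶ Spec (CommRingCat.of (MvPolynomial n k)) := U.ι ≫ g₀
  have hg : Flat g := inferInstance
  have hflat : g.appTop.hom.Flat := HasRingHomProperty.appTop _ _ hg
  let θ₀ : MvPolynomial n k →+* Γ(Y, ⊤) :=
    ((Scheme.ΓSpecIso (CommRingCat.of (MvPolynomial n k))).inv ≫ g₀.appTop).hom
  let θ : MvPolynomial n k →+* Γ(U, ⊤) :=
    ((Scheme.ΓSpecIso (CommRingCat.of (MvPolynomial n k))).inv ≫ g.appTop).hom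
  have hθ : θ.Flat := by
    have := (RingHom.Flat.respectsIso).2 g.appTop.hom
      (Scheme.ΓSpecIso (CommRingCat.of (MvPolynomial n k))).symm.commRingCatIsoToRingEquiv hflat
    exact this
  have hge : g₀ ≫ e.inv = AffineSpace.homOfVector y v := by simp [g₀]
  have hX : θ₀ (MvPolynomial.X i) = v i := by
    have h1 := AffineSpace.SpecIso_inv_appTop_coord (n := n) (CommRingCat.of k) i
    have h2 : (AffineSpace.homOfVector y v).appTop (AffineSpace.coord _ i) = v i :=
      AffineSpace.homOfVector_appTop_coord _ _ _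
    have h3 : g₀.appTop (e.inv.appTop (AffineSpace.coord _ i)) = v i := by
      rw [← h2, ← hge]
      rfl
    rw [← h3]
    change g₀.appTop _ = _
    congr 1
    exact h1.symm
  have hy : g₀ ≫ Spec.map (CommRingCat.ofHom MvPolynomial.C) = y := by
    have h1 := AffineSpace.SpecIso_inv_over (n := n) (CommRingCat.of k)
    have h2 := AffineSpace.homOfVector_over y v
    rw [← hge, Category.assoc, h1] at h2
    exact h2
  have hC : θ₀.comp MvPolynomial.C = ((Scheme.ΓSpecIso (CommRingCat.of k)).inv ≫ y.appTop).hom := by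
    have h1 : (Scheme.ΓSpecIso (CommRingCat.of k)).inv ≫ y.appTop =
        CommRingCat.ofHom (MvPolynomial.C : k →+* MvPolynomial n k) ≫
          (Scheme.ΓSpecIso (CommRingCat.of (MvPolynomial n k))).inv ≫ g₀.appTop := by
      rw [← hy, Scheme.Hom.comp_appTop, ← Scheme.ΓSpecIso_inv_naturality_assoc]
    rw [h1]
    rfl
  have hs : Subsingleton Γ(U, ⊤) := by
    refine subsingleton_of_flat_of_eval₂ θ hθ i p hp ?_
    have h1 : θ = U.ι.appTop.hom.comp θ₀ := by
      change ((Scheme.ΓSpecIso (CommRingCat.of (MvPolynomial n k))).inv ≫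
        (U.ι ≫ g₀).appTop).hom = _
      rw [Scheme.Hom.comp_appTop]
      rfl
    have h2 : θ₀ (Polynomial.aeval (MvPolynomial.X i : MvPolynomial n k) p) = 0 := by
      rw [Polynomial.aeval_def, Polynomial.hom_eval₂, hX]
      erw [hC]
      exact h
    rw [h1, RingHom.comp_apply, h2, map_zero]
  have hne : Nonempty (U : Scheme.{u}) := ⟨⟨x, hxU⟩⟩
  have : Nonempty (⊤ : (U : Scheme.{u}).Opens) := ⟨⟨⟨x, hxU⟩, trivial⟩⟩
  have hnt : Nontrivial Γ(U, ⊤) := Scheme.component_nontrivial (U : Scheme.{u}) ⊤
  exact not_subsingleton _ hs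

/-- Base change of the étale coordinate morphism to a point of the base. -/
lemma false_of_coord {X S : Scheme.{u}} (f : X ⟶ S) [UniversallyClosed f] (φ : Γ(X, ⊤)) (x : X)
    (W : X.Opens) (hxW : x ∈ W) {n : Type u} (v : n → Γ(W, ⊤)) (i : n)
    [Flat (AffineSpace.homOfVector (W.ι ≫ f) v)] (hv : v i = W.ι.appTop φ) : False := by
  let k := S.residueField (f x)
  let b : Spec (CommRingCat.of k) ⟶ S := S.fromSpecResidueField (f x)
  -- the fibre
  let F := pullback f b
  let q : F ⟶ Spec (CommRingCat.of k) := pullback.snd f b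
  have hint : q.appTop.hom.IsIntegral := isIntegral_appTop_of_universallyClosed q
  have hint' : ((Scheme.ΓSpecIso (CommRingCat.of k)).inv ≫ q.appTop).hom.IsIntegral := by
    have := RingHom.isIntegral_respectsIso.2 q.appTop.hom
      (Scheme.ΓSpecIso (CommRingCat.of k)).symm.commRingCatIsoToRingEquiv hint
    exact this
  obtain ⟨p, hp, hpe⟩ := hint' ((pullback.fst f b).appTop φ)
  -- the fibre of `W`
  let Y := pullback (W.ι ≫ f) b
  let y : Y ⟶ Spec (CommRingCat.of k) := pullback.snd (W.ι ≫ f) b
  let j : Y ⟶ W := pullback.fst (W.ι ≫ f) b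
  let a : Y ⟶ F := pullback.lift (j ≫ W.ι) y (by
    rw [Category.assoc]; exact pullback.condition)
  have ha1 : a ≫ pullback.fst f b = j ≫ W.ι := pullback.lift_fst _ _ _
  have ha2 : a ≫ q = y := pullback.lift_snd _ _ _
  let g := AffineSpace.homOfVector (W.ι ≫ f) v
  let g' := AffineSpace.homOfVector y (fun m => j.appTop (v m))
  have hg' : Flat g' := by
    have hsq : IsPullback j g' g (AffineSpace.map n b) := by
      refine IsPullback.of_bot (h₃₁ := b) (v₂₁ := 𝔸(n; Spec (CommRingCat.of k)) ↘
        Spec (CommRingCat.of k)) (v₂₂ := 𝔸(n; S) ↘ S) ?_ ?_ (AffineSpace.isPullback_map b)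
      · rw [AffineSpace.homOfVector_over, AffineSpace.homOfVector_over]
        exact IsPullback.of_hasPullback _ _
      · apply AffineSpace.hom_ext
        · rw [Category.assoc, AffineSpace.homOfVector_over, Category.assoc,
            AffineSpace.map_over, AffineSpace.homOfVector_over_assoc]
          exact pullback.condition
        · intro m
          rw [Scheme.Hom.comp_appTop, Scheme.Hom.comp_appTop, CommRingCat.comp_apply,
            CommRingCat.comp_apply, AffineSpace.homOfVector_appTop_coord,
            AffineSpace.map_appTop_coord, AffineSpace.homOfVector_appTop_coord]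
    exact MorphismProperty.of_isPullback hsq inferInstance
  have hY := isEmpty_of_flat y (fun m => j.appTop (v m)) i p hp.ne_zero (by
    have h1 : j.appTop (v i) = a.appTop ((pullback.fst f b).appTop φ) := by
      rw [hv, ← CommRingCat.comp_apply, ← Scheme.Hom.comp_appTop, ← ha1, Scheme.Hom.comp_appTop,
        CommRingCat.comp_apply]
    have h2 : (Scheme.ΓSpecIso (CommRingCat.of k)).inv ≫ y.appTop =
        ((Scheme.ΓSpecIso (CommRingCat.of k)).inv ≫ q.appTop) ≫ a.appTop := by
      rw [Category.assoc, ← Scheme.Hom.comp_appTop, ha2]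
    rw [h1, h2, CommRingCat.hom_comp, ← Polynomial.hom_eval₂]
    erw [hpe]
    exact map_zero _)
  obtain ⟨z, -, -⟩ := Scheme.Pullback.exists_preimage_pullback (f := W.ι ≫ f) (g := b)
    ⟨x, hxW⟩ (IsLocalRing.closedPoint k) (by
      exact (Scheme.fromSpecResidueField_apply (f x) _).symm)
  exact hY.false z

/-- A relative strict normal crossings divisor cut out by global functions on a scheme which is
universally closed over the base is empty. -/
theorem basicOpen_eq_top {X S : Scheme.{u}} (f : X ⟶ S) [UniversallyClosed f] {r : ℕ}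
    (φ : Fin r → Γ(X, ⊤)) (hD : SGA1t.IsRelSNC f φ) (i : Fin r) : X.basicOpen (φ i) = ⊤ := by
  rw [eq_top_iff]
  intro x _
  by_contra hx
  obtain ⟨W, hxW, d, v, e, -, he, hv⟩ := hD x ⟨⟨i, hx⟩⟩
  refine false_of_coord f (φ i) x W hxW v (ULift.up (e ⟨i, hx⟩)) ?_
  refine (hv ⟨i, hx⟩).trans ?_
  have h : X.presheaf.map (homOfLE le_top).op ≫ W.topIso.inv = W.ι.appTop := by
    rw [Scheme.Opens.ι_appTop, Scheme.Opens.topIso_inv]
    exact (X.presheaf.map_comp _ _).symm
  rw [← h]
  rfl

/-- A relative strict normal crossings divisor cut out by global functions on a scheme which is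
universally closed over the base is empty. -/
theorem compl_eq_top' {X S : Scheme.{u}} (f : X ⟶ S) [UniversallyClosed f] {r : ℕ}
    (φ : Fin r → Γ(X, ⊤)) (hD : SGA1t.IsRelSNC f φ) : SGA1t.compl φ = ⊤ := by
  refine Scheme.basicOpen_of_isUnit X (IsUnit.prod_univ_iff.mpr fun i => ?_)
  refine RingedSpace.isUnit_of_isUnit_germ _ _ _ fun x hx => ?_
  have h : x ∈ X.basicOpen (φ i) := by rw [basicOpen_eq_top f φ hD i]; trivial
  exact (Scheme.mem_basicOpen_top X (φ i) x).mp h

/-- A relative strict normal crossings divisor cut out by global functions on a proper scheme is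
empty. -/
theorem compl_eq_top {X S : Scheme.{u}} (f : X ⟶ S) [IsProper f] {r : ℕ}
    (φ : Fin r → Γ(X, ⊤)) (hD : SGA1t.IsRelSNC f φ) : SGA1t.compl φ = ⊤ :=
  compl_eq_top' f φ hD

end Groth.Agent.Pi1.H417.ComplTop
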