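import Groth.Agent.Pi1.H417.ComplTop
import Groth.Agent.Pi1A.FEtAffine
import Groth.Prelude.Def_Hens2

/-!
# Restriction of finite étale covers along `resLE` when the opens are everything
-/

set_option autoImplicit false

universe u

open CategoryTheory CategoryTheory.Limits AlgebraicGeometry

namespace Groth.Agent.Pi1.H417.Glue

open Groth.Agent.Pi1A

/-- `U.ι` is an isomorphism when `U = ⊤`. -/
lemma isIso_ι {X : Scheme.{u}} (U : X.Opens) (hU : U = ⊤) : IsIso U.ι := by
  subst hU
  exact (Scheme.topIso X).isIso_hom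

/-- The complement of the pulled-back (empty) divisor is everything. -/
lemma compl_appTop_eq_top {X Y : Scheme.{u}} (g : Y ⟶ X) {r : ℕ} (φ : Fin r → Γ(X, ⊤))
    (h : SGA1t.compl φ = ⊤) : SGA1t.compl (fun i => g.appTop (φ i)) = ⊤ := by
  have hu : ∀ i, IsUnit (φ i) := by
    intro i
    refine RingedSpace.isUnit_of_isUnit_germ _ _ _ fun x hx => ?_
    have hx' : x ∈ X.basicOpen (∏ i, φ i) := by
      rw [show X.basicOpen (∏ i, φ i) = ⊤ from h]; trivial
    have h1 := (Scheme.mem_basicOpen_top X _ x).mp hx'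
    rw [map_prod] at h1
    exact IsUnit.prod_univ_iff.mp h1 i
  exact Scheme.basicOpen_of_isUnit Y (IsUnit.prod_univ_iff.mpr fun i => (hu i).map _)

section

variable {X X' : Scheme.{u}} (k : X' ⟶ X) (U : X.Opens) (U' : X'.Opens) (hle : U' ≤ k ⁻¹ᵁ U)
  (hU : U = ⊤) (hU' : U' = ⊤)

include hU hU' in
lemma isEquivalence_resLE [(FEt.restrict k).IsEquivalence] :
    (FEt.restrict (k.resLE U U' hle)).IsEquivalence := by
  have := isIso_ι U hU
  have := isIso_ι U' hU'
  exact FEtAffine.restrict_isEquivalence_of_arrowIso (f := k.resLE U U' hle) (f' := k)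
    (asIso U'.ι) (asIso U.ι) (by simp)

include hU hU' in
lemma full_resLE [(FEt.restrict k).Full] : (FEt.restrict (k.resLE U U' hle)).Full := by
  have := isIso_ι U hU
  have := isIso_ι U' hU'
  exact FEtAffine.restrict_full_of_arrowIso (f := k.resLE U U' hle) (f' := k)
    (asIso U'.ι) (asIso U.ι) (by simp)

include hU hU' in
lemma faithful_resLE [(FEt.restrict k).Faithful] :
    (FEt.restrict (k.resLE U U' hle)).Faithful := by
  have := isIso_ι U hU
  have := isIso_ι U' hU'
  exact FEtAffine.restrict_faithful_of_arrowIso (f := k.resLE U U' hle) (f' := k)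
    (asIso U'.ι) (asIso U.ι) (by simp)

end

/-- Equivariant isomorphisms descend along fully faithful restriction functors. -/
lemma exists_iso_of_restrict {X X' : Scheme.{u}} (g : X' ⟶ X) [(FEt.restrict g).Full]
    [(FEt.restrict g).Faithful] {C : Type} [Group C] (P Q : FEt.Cat X) (ρ : C →* Aut P)
    (τ : C →* Aut Q)
    (h : ∃ e' : (FEt.restrict g).obj P ≅ (FEt.restrict g).obj Q, ∀ c : C,
      (FEt.restrict g).map (ρ c).hom ≫ e'.hom = e'.hom ≫ (FEt.restrict g).map (τ c).hom) :
    ∃ e : P ≅ Q, ∀ c : C, (ρ c).hom ≫ e.hom = e.hom ≫ (τ c).hom := by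
  obtain ⟨e', he'⟩ := h
  refine ⟨(FEt.restrict g).preimageIso e', fun c => ?_⟩
  apply (FEt.restrict g).map_injective
  rw [Functor.map_comp, Functor.map_comp, Functor.preimageIso_hom, Functor.map_preimage]
  exact he' c

end Groth.Agent.Pi1.H417.Glue
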